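import Cfsg.Agent.H46.TL.Ord
import Cfsg.Agent.H311.TC6.GFx

/-!
# One class of prime order in `SL_n(q)`, `n` odd

`One n r K c` : `c ∈ SL_n(K)` has prime order `r ≥ 5`, `r ∣ q ^ m - 1 ↔ n ∣ m`, and an irreducible characteristic polynomial
`f` with `X ^ k - 1` divisible by `f` iff `r ∣ k`; the exception of Theorem L does not occur.
-/

set_option autoImplicit false

namespace Cfsg.Agent.H46.TL

open Matrix Polynomial

universe u

theorem tlc_of_fac {n : ℕ} {F : Type u} [Field F] [Finite F] {c d : SpecialLinearGroup (Fin n) F}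
    (hc : Irreducible (c : Matrix (Fin n) (Fin n) F).charpoly) (hd : Irreducible (d : Matrix (Fin n) (Fin n) F).charpoly)
    (h : ∀ A : Matrix (Fin n) (Fin n) F, A.det = 1 → (∀ a : F, A ≠ a • (1 : Matrix (Fin n) (Fin n) F)) →
      ∃ X Y : Matrix (Fin n) (Fin n) F, X * Y = A ∧ X.charpoly = (c : Matrix (Fin n) (Fin n) F).charpoly ∧
        Y.charpoly = (d : Matrix (Fin n) (Fin n) F).charpoly) : TLC n F c d := by
  intro A hA
  obtain ⟨X, Y, e, hX, hY⟩ := h A.1 A.2 hA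
  obtain ⟨g, hg⟩ := sl_conj hc hX
  obtain ⟨k, hk⟩ := sl_conj hd hY
  refine ⟨g, k, ?_⟩
  apply Subtype.ext
  rw [← e, hg, hk]
  rfl

/-- one class of prime order -/
structure One (n r : ℕ) (K : Type u) [Field K] (c : SpecialLinearGroup (Fin n) K) : Prop where
  prime : r.Prime
  five : 5 ≤ r
  ord : orderOf c = r
  irr : Irreducible (c : Matrix (Fin n) (Fin n) K).charpoly
  dvd : ∀ m, r ∣ Nat.card K ^ m - 1 ↔ n ∣ m
  pol : ∀ k, (c : Matrix (Fin n) (Fin n) K).charpoly ∣ X ^ k - 1 ↔ r ∣ k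
  ex : ∀ (X : Matrix (Fin n) (Fin n) K) (a : K), X.charpoly = (c : Matrix (Fin n) (Fin n) K).charpoly →
    (a • X⁻¹).charpoly ≠ (c : Matrix (Fin n) (Fin n) K).charpoly

theorem exists_one (K : Type u) [Field K] [Finite K] (h3 : 3 ≤ Nat.card K) {n : ℕ} (hn : 3 ≤ n) (hno : Odd n) :
    ∃ (r : ℕ) (c : SpecialLinearGroup (Fin n) K), One n r K c := by
  obtain ⟨r, hr, h5, hiff⟩ := Cfsg.Agent.H311.TC6.exists_five (q := Nat.card K) (by omega) hn (by omega)
  have hrq : ¬ r ∣ Nat.card K - 1 := by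
    intro h
    have := Nat.le_of_dvd (by norm_num) ((hiff 1).1 (by rwa [pow_one]))
    omega
  obtain ⟨f, m1, m2, m3, m4, m5, m6⟩ := Cfsg.Agent.H311.TC6.pf_of K (n := n) (N := r) (by omega)
    ((hiff n).2 dvd_rfl) (fun k hk hkn h => by
      have := Nat.le_of_dvd hk ((hiff k).1 h)
      omega) (fun j hj h => by
      obtain ⟨h0, h1⟩ := Cfsg.Agent.H311.TC6.not_dvd_add h5 hiff hj h
      rw [h1] at hno
      exact (Nat.not_odd_iff_even.2 ⟨j, by ring⟩) hno) ((Nat.Prime.coprime_iff_not_dvd hr).2 hrq)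
  have h0 : f.coeff 0 ≠ 0 := by
    intro h
    rw [h, mul_zero] at m6
    exact zero_ne_one m6
  obtain ⟨c, hc⟩ := exists_sl m1 m3 m6
  refine ⟨r, c, hr, h5, ?_, hc.symm ▸ m2, hiff, fun k => by rw [hc]; exact m5 k, fun A a hA => ?_⟩
  · apply orderOf_eq_prime (hp := ⟨hr⟩)
    · exact sl_pow (by rw [hc]; exact (m5 r).2 dvd_rfl)
    · intro h1
      have h2 : f.IsRoot 1 := by
        rw [← hc, h1, Matrix.SpecialLinearGroup.coe_one, Matrix.charpoly_one, Fintype.card_fin, IsRoot.def]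
        rw [eval_pow, eval_sub, eval_X, eval_one, sub_self, zero_pow (by omega)]
      have h3 := degree_eq_one_of_irreducible_of_root m2 h2
      have h4 : f.natDegree = 1 := natDegree_eq_of_degree_eq_some h3
      omega
  · rw [hc] at hA ⊢
    exact Cfsg.Agent.H311.TC6.ex_of m1 m2 m3 hn m5 h0 hr h5 dvd_rfl hiff (Or.inl hno) A a hA

end Cfsg.Agent.H46.TL
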