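import Cfsg.Agent.H46.TL.OneC
import Cfsg.Agent.H960.TL.Main

/-!
# One class of prime order in `SL_n(q)`, `n` odd: Theorem L

`One.tlc` : every nonscalar element of `SL_n(K)` is a product of two conjugates of `c`.
-/

set_option autoImplicit false

namespace Cfsg.Agent.H46.TL

open Matrix Polynomial

universe u

theorem One.tlc {n r : ℕ} {K : Type u} [Field K] [Finite K] {c : SpecialLinearGroup (Fin n) K} (h : One n r K c)
    (h3 : 3 ≤ Nat.card K) (hn : 3 ≤ n) : TLC n K c c := by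
  have hd : (c : Matrix (Fin n) (Fin n) K).charpoly.natDegree = n := by
    rw [Matrix.charpoly_natDegree_eq_dim, Fintype.card_fin]
  have h0 : (-1) ^ n * (c : Matrix (Fin n) (Fin n) K).charpoly.coeff 0 = 1 := by
    have h1 := Matrix.det_eq_sign_charpoly_coeff (c : Matrix (Fin n) (Fin n) K)
    rw [c.2, Fintype.card_fin] at h1
    exact h1.symm
  exact tlc_of_fac h.irr h.irr fun A hA hns =>
    Cfsg.Agent.H960.TL.fac h3 hn (Matrix.charpoly_monic _) (Matrix.charpoly_monic _) hd hd h.irr h.irr h0 h0 h.ex A hA hns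

/-- **One class of prime order in `SL_n(q)`, `n` odd, `q ≥ 3`.** -/
theorem exists_tlc (K : Type u) [Field K] [Finite K] (h3 : 3 ≤ Nat.card K) {n : ℕ} (hn : 3 ≤ n) (hno : Odd n) :
    ∃ (r : ℕ) (c : SpecialLinearGroup (Fin n) K), One n r K c ∧ TLC n K c c := by
  obtain ⟨r, c, h⟩ := exists_one K h3 hn hno
  exact ⟨r, c, h, h.tlc h3 hn⟩

/-- **The class in `SL₇(q)`, `q ≥ 3`.** -/
theorem exists_seven (K : Type u) [Field K] [Finite K] (h3 : 3 ≤ Nat.card K) :
    ∃ (r : ℕ) (c : SpecialLinearGroup (Fin 7) K), One 7 r K c ∧ TLC 7 K c c :=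
  exists_tlc K h3 (by norm_num) (by decide)

end Cfsg.Agent.H46.TL
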