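import Cfsg.Agent.H46.TL.Seven

/-!
# The class in `SL₇(q)`, `q ≥ 3`, in the form of the row `E₈(q)` of S2452
-/

set_option autoImplicit false

namespace Cfsg.Agent.H46.TL

open Matrix Polynomial

universe u

theorem dvd_geom {q r : ℕ} (hq : 1 ≤ q) (hr : r.Prime) (h1 : r ∣ q ^ 7 - 1) (h2 : ¬ r ∣ q - 1) :
    r ∣ ∑ a ∈ Finset.range 7, q ^ a := by
  obtain ⟨t, rfl⟩ : ∃ t, q = t + 1 := ⟨q - 1, by omega⟩
  have e : (t + 1) ^ 7 - 1 = t * ∑ a ∈ Finset.range 7, (t + 1) ^ a := by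
    apply Nat.sub_eq_of_eq_add
    simp only [Finset.sum_range_succ, Finset.sum_range_zero]
    ring
  rw [e, hr.dvd_mul] at h1
  rcases h1 with h1 | h1
  · exact absurd (by simpa using h1) h2
  · exact h1

theorem ne_seven {q r : ℕ} (hq : 1 ≤ q) (h1 : r ∣ q ^ 7 - 1) (h2 : ¬ r ∣ q - 1) : r ≠ 7 := by
  rintro rfl
  apply h2
  have : Fact (Nat.Prime 7) := ⟨by norm_num⟩
  rw [← ZMod.natCast_eq_zero_iff, Nat.cast_sub (Nat.one_le_pow _ _ hq), Nat.cast_pow, ZMod.pow_card] at h1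
  rw [← ZMod.natCast_eq_zero_iff, Nat.cast_sub hq]
  exact h1

/-- **The class in `SL₇(q)`, `q ≥ 3`.** -/
theorem seven (K : Type u) [Field K] [Finite K] (h3 : 3 ≤ Nat.card K) :
    ∃ (r : ℕ) (c : SpecialLinearGroup (Fin 7) K), r.Prime ∧ r ≠ 7 ∧ r.Coprime 6 ∧
      r ∣ ∑ a ∈ Finset.range 7, Nat.card K ^ a ∧ orderOf c = r ∧ c ^ r = 1 ∧
      Irreducible (c : Matrix (Fin 7) (Fin 7) K).charpoly ∧
      ∀ B : SpecialLinearGroup (Fin 7) K, (∀ a : K, B.1 ≠ a • (1 : Matrix (Fin 7) (Fin 7) K)) →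
        ∃ g h : SpecialLinearGroup (Fin 7) K, B = (g * c * g⁻¹) * (h * c * h⁻¹) := by
  obtain ⟨r, c, hc, ht⟩ := exists_seven K h3
  have h1 : r ∣ Nat.card K ^ 7 - 1 := (hc.dvd 7).2 dvd_rfl
  have h2 : ¬ r ∣ Nat.card K - 1 := by
    intro h
    have := Nat.le_of_dvd (by norm_num) ((hc.dvd 1).1 (by rwa [pow_one]))
    omega
  exact ⟨r, c, hc.prime, ne_seven (by omega) h1 h2, Cfsg.Agent.H311.TC6.cop_six hc.prime hc.five,
    dvd_geom (by omega) hc.prime h1 h2, hc.ord, by rw [← hc.ord]; exact pow_orderOf_eq_one c, hc.irr, ht⟩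

end Cfsg.Agent.H46.TL
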